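import Cfsg.Agent.H626.MRow.TwentyNine
import Cfsg.Agent.H626.MRow.Count
import Cfsg.Agent.H626.MRow.Real

/-!
# S4826, the row of the Monster, all primes but 23

`row_of (h23 : Row 23 MG) (h : IsoM S) (hp : p.Prime) (hd : p ∣ Nat.card S) : Row p S`
-/

set_option autoImplicit false
set_option maxRecDepth 100000

namespace Cfsg.Agent.H626.MRow

open Cfsg
open Cfsg.Agent.BpSpor.MBigModel
open Cfsg.Agent.H133.PB (Row BD)

/-- the prime divisors of the order -/
theorem primes {p : ℕ} (hp : p.Prime) (hd : p ∣ 808017424794512875886459904961710757005754368000000000) :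
    p = 2 ∨ p = 3 ∨ p = 5 ∨ p = 7 ∨ p = 11 ∨ p = 13 ∨ p = 17 ∨ p = 19 ∨ p = 23 ∨ p = 29 ∨ p = 31 ∨ p = 41 ∨
      p = 47 ∨ p = 59 ∨ p = 71 := by
  have e : 808017424794512875886459904961710757005754368000000000 =
      2 ^ 46 * (3 ^ 20 * (5 ^ 9 * (7 ^ 6 * (11 ^ 2 * (13 ^ 3 * (17 * (19 * (23 * (29 * (31 * (41 * (47 * (59 * 71))))))))))))) := by
    norm_num
  rw [e] at hd
  have key : ∀ {a b : ℕ}, p ∣ a * b → p ∣ a ∨ p ∣ b := fun h => (hp.dvd_mul).1 h
  have kp : ∀ {a n : ℕ}, a.Prime → p ∣ a ^ n → p = a := fun ha h =>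
    (Nat.prime_dvd_prime_iff_eq hp ha).1 (hp.dvd_of_dvd_pow h)
  have k1 : ∀ {a : ℕ}, a.Prime → p ∣ a → p = a := fun ha h => (Nat.prime_dvd_prime_iff_eq hp ha).1 h
  rcases key hd with h | hd
  · have := kp (by norm_num) h; tauto
  rcases key hd with h | hd
  · have := kp (by norm_num) h; tauto
  rcases key hd with h | hd
  · have := kp (by norm_num) h; tauto
  rcases key hd with h | hd
  · have := kp (by norm_num) h; tauto
  rcases key hd with h | hd
  · have := kp (by norm_num) h; tauto
  rcases key hd with h | hd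
  · have := kp (by norm_num) h; tauto
  rcases key hd with h | hd
  · have := k1 (by norm_num) h; tauto
  rcases key hd with h | hd
  · have := k1 (by norm_num) h; tauto
  rcases key hd with h | hd
  · have := k1 (by norm_num) h; tauto
  rcases key hd with h | hd
  · have := k1 (by norm_num) h; tauto
  rcases key hd with h | hd
  · have := k1 (by norm_num) h; tauto
  rcases key hd with h | hd
  · have := k1 (by norm_num) h; tauto
  rcases key hd with h | hd
  · have := k1 (by norm_num) h; tauto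
  rcases key hd with h | hd
  · have := k1 (by norm_num) h; tauto
  · have := k1 (by norm_num) hd; tauto

/-- **The row of the Monster in the model, all primes but 23.** -/
theorem row_model (h23 : Row 23 MG) {p : ℕ} (hp : p.Prime) (hd : p ∣ Nat.card MG) :
    Row p MG := by
  have hc := card_M
  have k5 : ∀ {p : ℕ}, (p = 7 ∨ p = 11 ∨ p = 13 ∨ p = 29 ∨ p = 41 ∨ p = 59 ∨ p = 71) → Row p MG := fun h =>
    Row.intro (by norm_num : (5 : ℕ).Prime) (by omega) (by rw [hc]; norm_num) (Count.bd h)
  have k29 : ∀ {p : ℕ}, (p = 3 ∨ p = 5 ∨ p = 17 ∨ p = 19 ∨ p = 31) → Row p MG := fun h =>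
    Row.intro (by norm_num : (29 : ℕ).Prime) (by omega) (by rw [hc]; norm_num) (TwentyNine.bd h)
  rw [hc] at hd
  rcases primes hp hd with rfl | rfl | rfl | rfl | rfl | rfl | rfl | rfl | rfl | rfl | rfl | rfl | rfl | rfl | rfl
  · exact TwentyNine.row_two
  · exact k29 (by tauto)
  · exact k29 (by tauto)
  · exact k5 (by tauto)
  · exact k5 (by tauto)
  · exact k5 (by tauto)
  · exact k29 (by tauto)
  · exact k29 (by tauto)
  · exact h23
  · exact k5 (by tauto)
  · exact k29 (by tauto)
  · exact k5 (by tauto)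
  · obtain ⟨f⟩ := Cfsg.Agent.MonsterP.Equiv.equiv
    exact Row.intro Nat.prime_two (by norm_num) (by rw [hc]; norm_num) ((bd_two (by norm_num)).of_equiv f.symm)
  · exact k5 (by tauto)
  · exact k5 (by tauto)

/-- **The row of the Monster from `p = 23`.** -/
theorem row_of (h23 : Row 23 MG) {S : Type*} [Group S] (h : Cfsg.Spor.IsoM S) {p : ℕ}
    (hp : p.Prime) (hd : p ∣ Nat.card S) : Row p S := by
  obtain ⟨e⟩ := h
  obtain ⟨f⟩ := Cfsg.Agent.MonsterP.Equiv.equiv
  refine (row_model h23 hp ?_).of_equiv (e.trans f)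
  rwa [← Nat.card_congr (e.trans f).toEquiv]

end Cfsg.Agent.H626.MRow
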